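import Cfsg.Agent.H601.C3.DecDefs
import Cfsg.Agent.H375.C3.Comp

/-!
# S1920, case B, `PSU_n(q)`: the component of `Eh` (helper330)

From helper601's decomposition `Dec` of the commutant of `Nh`: `exists_comp` : there is a unitary component `CompU` or a pair
`CompP` such that `Eh` acts trivially on the orthogonal complement.
-/

set_option autoImplicit false

open Subgroup Module

namespace Cfsg.Agent.H330.C3

open Cfsg.Agent.H415.C3 Cfsg.Agent.H601.C3 Cfsg.Agent.H375.C3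

variable {K : Type*} [Field K] {V : Type*} [AddCommGroup V] [Module K V]

section StarLemmas

variable {σ : K ≃+* K} {ad : Module.End K V → Module.End K V}

theorem ad_zero (S : Star σ ad) : ad 0 = 0 := by
  have h := S.add 0 0
  rw [add_zero] at h
  exact left_eq_add.1 h

theorem ad_one (S : Star σ ad) : ad 1 = 1 := by
  have h := S.mul (ad 1) 1
  rw [mul_one, S.inv, mul_one] at h
  exact h.symm

theorem ad_sub (S : Star σ ad) (X Y : Module.End K V) : ad (X - Y) = ad X - ad Y := by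
  have h := S.add (X - Y) Y
  rw [sub_add_cancel] at h
  rw [h, add_sub_cancel_right]

theorem ad_inj (S : Star σ ad) {X Y : Module.End K V} (h : ad X = ad Y) : X = Y := by
  rw [← S.inv X, h, S.inv]

end StarLemmas

/-- a unitary component -/
structure CompU (σ : K ≃+* K) (ad : Module.End K V → Module.End K V) (N E : Subgroup (V ≃ₗ[K] V)) (m : ℕ)
    (j : Matrix (Fin m) (Fin m) K →ₗ[K] Module.End K V) : Prop where
  mul : ∀ X Y, j (X * Y) = j X * j Y
  inj : Function.Injective j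
  comm : ∀ X, ∀ g ∈ N, j X * (g : V →ₗ[K] V) = (g : V →ₗ[K] V) * j X
  ne : j 1 ≠ 1
  star : ∀ X, ad (j X) = j (hc σ X)
  E : ∀ e ∈ E, ∃ U : Matrix.SpecialLinearGroup (Fin m) K,
    ((e : V ≃ₗ[K] V) : V →ₗ[K] V) = 1 + j ((U : Matrix (Fin m) (Fin m) K) - 1)
  det : ∃ d : ℕ, ∀ X, LinearMap.det (1 + j (X - 1)) = X.det ^ d

/-- a pair of components -/
structure CompP (ad : Module.End K V → Module.End K V) (N E : Subgroup (V ≃ₗ[K] V)) (m : ℕ)
    (j : Matrix (Fin m) (Fin m) K →ₗ[K] Module.End K V) : Prop where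
  mul : ∀ X Y, j (X * Y) = j X * j Y
  inj : Function.Injective j
  comm : ∀ X, ∀ g ∈ N, j X * (g : V →ₗ[K] V) = (g : V →ₗ[K] V) * j X
  ne : j 1 + ad (j 1) ≠ 1
  pair : ∀ X Y, j X * ad (j Y) = 0 ∧ ad (j X) * j Y = 0
  loc : ∀ T : Module.End K V, (∀ g ∈ N, T * (g : V →ₗ[K] V) = (g : V →ₗ[K] V) * T) →
    ∃ Z, T * j 1 = j Z ∧ j 1 * T = j Z
  E : ∀ e ∈ E, ∃ U : Matrix.SpecialLinearGroup (Fin m) K, ((e : V ≃ₗ[K] V) : V →ₗ[K] V) =
    1 + j ((U : Matrix (Fin m) (Fin m) K) - 1) + ad (j (((U⁻¹ : Matrix.SpecialLinearGroup (Fin m) K) :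
      Matrix (Fin m) (Fin m) K) - 1))
  det : ∃ d : ℕ, ∀ X, LinearMap.det (1 + j (X - 1)) = X.det ^ d

section Terms

set_option linter.unusedSectionVars false

variable {σ : K ≃+* K} {ad : Module.End K V → Module.End K V} {N : Subgroup (V ≃ₗ[K] V)} {ι : Type} [Fintype ι]
  {m : ι → ℕ} {u : ι → Bool} {φ : ∀ i, Matrix (Fin (m i)) (Fin (m i)) K →ₗ[K] Module.End K V}

/-- an element of the `i`-th component -/
def tm (ad : Module.End K V → Module.End K V) (u : ι → Bool)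
    (φ : ∀ i, Matrix (Fin (m i)) (Fin (m i)) K →ₗ[K] Module.End K V) (i : ι) (X Y : Matrix (Fin (m i)) (Fin (m i)) K) :
    Module.End K V := φ i X + if u i then 0 else ad (φ i Y)

theorem tm_zero (S : Star σ ad) (i : ι) (X : Matrix (Fin (m i)) (Fin (m i)) K) : tm ad u φ i X 0 = φ i X := by
  unfold tm
  rw [map_zero, ad_zero S]
  simp

theorem tm_true {i : ι} (h : u i = true) (X Y : Matrix (Fin (m i)) (Fin (m i)) K) : tm ad u φ i X Y = φ i X := by
  unfold tm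
  rw [if_pos h, add_zero]

theorem tm_false {i : ι} (h : u i = false) (X Y : Matrix (Fin (m i)) (Fin (m i)) K) :
    tm ad u φ i X Y = φ i X + ad (φ i Y) := by
  unfold tm
  rw [h]
  simp

theorem tm_mul (S : Star σ ad) (D : Dec σ ad N u φ) (i : ι) (X Y X' Y' : Matrix (Fin (m i)) (Fin (m i)) K) :
    tm ad u φ i X Y * tm ad u φ i X' Y' = tm ad u φ i (X * X') (Y' * Y) := by
  rcases hu : u i with _ | _
  · rw [tm_false hu, tm_false hu, tm_false hu, D.mul, D.mul, S.mul, mul_add, add_mul, add_mul, (D.pair i hu X Y').1,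
      (D.pair i hu Y X').2, add_zero, zero_add]
  · rw [tm_true hu, tm_true hu, tm_true hu, D.mul]

theorem tm_ne (S : Star σ ad) (D : Dec σ ad N u φ) {i k : ι} (hik : i ≠ k) (X Y : Matrix (Fin (m i)) (Fin (m i)) K)
    (X' Y' : Matrix (Fin (m k)) (Fin (m k)) K) : tm ad u φ i X Y * tm ad u φ k X' Y' = 0 := by
  have h1 := D.orth i k hik X X'
  have h2 := (D.orth' i k hik X Y').1
  have h3 := (D.orth' i k hik Y X').2
  have h4 : ad (φ i Y) * ad (φ k Y') = 0 := by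
    rw [← S.mul, D.orth k i hik.symm, ad_zero S]
  unfold tm
  rcases u i with _ | _ <;> rcases u k with _ | _ <;> simp [mul_add, add_mul, h1, h2, h3, h4]

theorem sum_mul_tm (S : Star σ ad) (D : Dec σ ad N u φ) (X Y : ∀ i, Matrix (Fin (m i)) (Fin (m i)) K) (k : ι)
    (X' Y' : Matrix (Fin (m k)) (Fin (m k)) K) :
    (∑ i, tm ad u φ i (X i) (Y i)) * tm ad u φ k X' Y' = tm ad u φ k (X k * X') (Y' * Y k) := by
  classical
  rw [Finset.sum_mul, Finset.sum_eq_single k, tm_mul S D]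
  · intro i _ hik
    exact tm_ne S D hik _ _ _ _
  · intro h
    exact absurd (Finset.mem_univ k) h

theorem tm_mul_sum (S : Star σ ad) (D : Dec σ ad N u φ) (X Y : ∀ i, Matrix (Fin (m i)) (Fin (m i)) K) (k : ι)
    (X' Y' : Matrix (Fin (m k)) (Fin (m k)) K) :
    tm ad u φ k X' Y' * (∑ i, tm ad u φ i (X i) (Y i)) = tm ad u φ k (X' * X k) (Y k * Y') := by
  classical
  rw [Finset.mul_sum, Finset.sum_eq_single k, tm_mul S D]
  · intro i _ hik
    exact tm_ne S D hik.symm _ _ _ _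
  · intro h
    exact absurd (Finset.mem_univ k) h

theorem one_eq (S : Star σ ad) (D : Dec σ ad N u φ) : (1 : Module.End K V) = ∑ i, tm ad u φ i 1 1 := by
  obtain ⟨X, Y, h⟩ := D.surj 1 (fun g _ => by rw [one_mul, mul_one])
  have h' : (1 : Module.End K V) = ∑ i, tm ad u φ i (X i) (Y i) := h
  rw [h']
  refine Finset.sum_congr rfl fun k _ => ?_
  have h2 := sum_mul_tm S D X Y k 1 1
  rw [← h', one_mul, mul_one, one_mul] at h2
  exact h2.symm

theorem tm_left (S : Star σ ad) (D : Dec σ ad N u φ) {i : ι} {X Y X' Y' : Matrix (Fin (m i)) (Fin (m i)) K}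
    (h : tm ad u φ i X Y = tm ad u φ i X' Y') : X = X' := by
  have h1 : tm ad u φ i X Y * tm ad u φ i 1 0 = tm ad u φ i X' Y' * tm ad u φ i 1 0 := by rw [h]
  rw [tm_mul S D, tm_mul S D, mul_one, mul_one, zero_mul, zero_mul, tm_zero S, tm_zero S] at h1
  exact D.inj i h1

theorem tm_right (S : Star σ ad) (D : Dec σ ad N u φ) {i : ι} (hu : u i = false)
    {X Y X' Y' : Matrix (Fin (m i)) (Fin (m i)) K} (h : tm ad u φ i X Y = tm ad u φ i X' Y') : Y = Y' := by
  have h1 : tm ad u φ i X Y * tm ad u φ i 0 1 = tm ad u φ i X' Y' * tm ad u φ i 0 1 := by rw [h]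
  rw [tm_mul S D, tm_mul S D, mul_zero, mul_zero, one_mul, one_mul, tm_false hu, tm_false hu, map_zero, zero_add,
    zero_add] at h1
  exact D.inj i (ad_inj S h1)

theorem ad_tm_false (S : Star σ ad) {i : ι} (hu : u i = false) (X Y : Matrix (Fin (m i)) (Fin (m i)) K) :
    ad (tm ad u φ i X Y) = tm ad u φ i Y X := by
  rw [tm_false hu, tm_false hu, S.add, S.inv, add_comm]

theorem hc_one (σ : K ≃+* K) (m : ℕ) : hc σ (1 : Matrix (Fin m) (Fin m) K) = 1 := by
  unfold hc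
  rw [Matrix.map_one σ (map_zero σ) (map_one σ), Matrix.transpose_one]

theorem ad_eps (S : Star σ ad) (D : Dec σ ad N u φ) (i : ι) : ad (tm ad u φ i 1 1) = tm ad u φ i 1 1 := by
  rcases hu : u i with _ | _
  · exact ad_tm_false S hu 1 1
  · rw [tm_true hu, D.star i hu, hc_one]

end Terms

section Main

variable {G : Type*} [Group G]
variable {Gh : Subgroup (V ≃ₗ[K] V)} {π : ↥Gh →* G} {N0 A E : Subgroup G} {z s x r : G}
  {ψ : ↥A →* Equiv.Perm (Fin 6)} {Nh Eh : Subgroup (V ≃ₗ[K] V)} {zh sh xh rh : V ≃ₗ[K] V}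

/-- the representation of `Eh` on the image of an idempotent -/
def rho (Eh : Subgroup (V ≃ₗ[K] V)) (ε : Module.End K V) (hε : ε * ε = ε)
    (hc : ∀ e ∈ Eh, ε * ((e : V ≃ₗ[K] V) : V →ₗ[K] V) = ((e : V ≃ₗ[K] V) : V →ₗ[K] V) * ε) : ↥Eh →* Module.End K V where
  toFun e := (((e : V ≃ₗ[K] V) : V →ₗ[K] V) : Module.End K V) * ε + (1 - ε)
  map_one' := by
    have h1 : (((1 : ↥Eh) : V ≃ₗ[K] V) : V →ₗ[K] V) = (1 : Module.End K V) := rfl
    rw [h1, one_mul, add_sub_cancel]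
  map_mul' e f := by
    have h1 : (((e * f : ↥Eh) : V ≃ₗ[K] V) : V →ₗ[K] V) =
      (((e : V ≃ₗ[K] V) : V →ₗ[K] V) : Module.End K V) * ((f : V ≃ₗ[K] V) : V →ₗ[K] V) := rfl
    have h2 := hc f f.2
    rw [h1]
    set a : Module.End K V := ((e : V ≃ₗ[K] V) : V →ₗ[K] V)
    set b : Module.End K V := ((f : V ≃ₗ[K] V) : V →ₗ[K] V)
    have h3 : ε * (b * ε) = b * ε := by rw [← mul_assoc, h2, mul_assoc, hε]
    rw [add_mul, mul_add, mul_add, sub_mul, one_mul, h3, sub_self, zero_add, mul_assoc a ε (b * ε), h3, mul_sub, mul_one,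
      mul_assoc a ε ε, hε, sub_self, add_zero, mul_sub, mul_one, sub_mul, one_mul, hε, sub_self, sub_zero, mul_assoc]

theorem rho_apply (ε : Module.End K V) (hε : ε * ε = ε)
    (hc : ∀ e ∈ Eh, ε * ((e : V ≃ₗ[K] V) : V →ₗ[K] V) = ((e : V ≃ₗ[K] V) : V →ₗ[K] V) * ε) (e : ↥Eh) :
    rho Eh ε hε hc e = (((e : V ≃ₗ[K] V) : V →ₗ[K] V) : Module.End K V) * ε + (1 - ε) := rfl

/-- from a hom to `End V` to a hom to `GL(V)` -/
noncomputable def toGL {E : Type*} [Group E] (f : E →* Module.End K V) : E →* (V ≃ₗ[K] V) :=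
  (LinearMap.GeneralLinearGroup.generalLinearEquiv K V).toMonoidHom.comp f.toHomUnits

theorem coe_toGL {E : Type*} [Group E] (f : E →* Module.End K V) (e : E) :
    ((toGL f e : V ≃ₗ[K] V) : V →ₗ[K] V) = f e := LinearMap.ext fun _ => rfl

/-- scalars are trivial for homomorphisms of perfect groups -/
theorem eq_one_of_isSc (hE : ⁅Eh, Eh⁆ = Eh) (f : ↥Eh →* Module.End K V) (h : ∀ e, ∃ c : K, f e = c • 1) (e : ↥Eh) :
    f e = 1 := by
  have hcen : ∀ e, f e ∈ Submonoid.center (Module.End K V) := by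
    intro e
    rw [Submonoid.mem_center_iff]
    intro g
    obtain ⟨c, hc⟩ := h e
    rw [hc, mul_smul_comm, mul_one, smul_mul_assoc, one_mul]
  let g : ↥Eh →* ↥(Submonoid.center (Module.End K V)) := f.codRestrict _ hcen
  have h1 := perf_hom hE g e
  exact congrArg Subtype.val h1

/-- **The component of `Eh`.** -/
theorem exists_comp (Kt : Kit N0 A E z s x r ψ) (hL : Lin Gh π)
    (L : LKit Gh π N0 A E z s x r Nh Eh zh sh xh rh)
    {σ : K ≃+* K} {ad : Module.End K V → Module.End K V} (S : Star σ ad)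
    (hGh : ∀ g : V ≃ₗ[K] V, g ∈ Gh ↔ ad (g : V →ₗ[K] V) * (g : V →ₗ[K] V) = 1 ∧ LinearMap.det (g : V →ₗ[K] V) = 1)
    {ι : Type} [Fintype ι] {m : ι → ℕ} {u : ι → Bool} {φ : ∀ i, Matrix (Fin (m i)) (Fin (m i)) K →ₗ[K] Module.End K V}
    (D : Dec σ ad Nh u φ) {d : ι → ℕ} (hd : ∀ i X, LinearMap.det (φ i X + (1 - φ i 1)) = X.det ^ d i) :
    (∃ (m : ℕ) (j : Matrix (Fin m) (Fin m) K →ₗ[K] Module.End K V), CompU σ ad Nh Eh m j) ∨
      ∃ (m : ℕ) (j : Matrix (Fin m) (Fin m) K →ₗ[K] Module.End K V), CompP ad Nh Eh m j := by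
  classical
  have hE := L.Eh_perf
  let ε : ι → Module.End K V := fun i => tm ad u φ i 1 1
  have hεε : ∀ i, ε i * ε i = ε i := fun i => by
    change tm ad u φ i 1 1 * tm ad u φ i 1 1 = tm ad u φ i 1 1
    rw [tm_mul S D, one_mul]
  have hadg : ∀ g ∈ Gh, (g : V →ₗ[K] V) * ad (g : V →ₗ[K] V) = (1 : Module.End K V) := by
    intro g hg
    have h1 := ((hGh g).1 hg).1
    have h2 : (((g : V ≃ₗ[K] V) : V →ₗ[K] V) : Module.End K V) * ((g⁻¹ : V ≃ₗ[K] V) : V →ₗ[K] V) = 1 :=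
      LinearMap.ext fun v => g.apply_symm_apply v
    have h3 : ad (g : V →ₗ[K] V) = ((g⁻¹ : V ≃ₗ[K] V) : V →ₗ[K] V) := by
      calc ad (g : V →ₗ[K] V) = ad (g : V →ₗ[K] V) * ((((g : V ≃ₗ[K] V) : V →ₗ[K] V) : Module.End K V) *
            ((g⁻¹ : V ≃ₗ[K] V) : V →ₗ[K] V)) := by rw [h2, mul_one]
        _ = _ := by rw [← mul_assoc, h1, one_mul]
    rw [h3, h2]
  -- commuting with `N`
  have hNad : ∀ T : Module.End K V, (∀ g ∈ Nh, T * (g : V →ₗ[K] V) = (g : V →ₗ[K] V) * T) →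
      ∀ g ∈ Nh, ad T * (g : V →ₗ[K] V) = (g : V →ₗ[K] V) * ad T := by
    intro T hT g hg
    have h1 := congrArg ad (hT g hg)
    rw [S.mul, S.mul] at h1
    have h2 := hadg g (Nh_le L hg)
    have h3 := ((hGh g).1 (Nh_le L hg)).1
    calc ad T * (g : V →ₗ[K] V) = ((g : V →ₗ[K] V) * ad (g : V →ₗ[K] V)) * (ad T * (g : V →ₗ[K] V)) := by
          rw [h2, one_mul]
      _ = (g : V →ₗ[K] V) * (ad (g : V →ₗ[K] V) * ad T) * (g : V →ₗ[K] V) := by simp only [mul_assoc]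
      _ = (g : V →ₗ[K] V) * (ad T * ad (g : V →ₗ[K] V)) * (g : V →ₗ[K] V) := by rw [h1]
      _ = (g : V →ₗ[K] V) * ad T * (ad (g : V →ₗ[K] V) * (g : V →ₗ[K] V)) := by simp only [mul_assoc]
      _ = _ := by rw [h3, mul_one]
  have hNtm : ∀ i X Y, ∀ g ∈ Nh, tm ad u φ i X Y * (g : V →ₗ[K] V) = (g : V →ₗ[K] V) * tm ad u φ i X Y := by
    intro i X Y g hg
    have h1 := D.comm i X g hg
    have h2 := hNad _ (D.comm i Y) g hg
    unfold tm
    rcases u i with _ | _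
    · simp only [Bool.false_eq_true, if_false]
      rw [add_mul, mul_add, h1, h2]
    · simp only [if_true, add_zero]
      exact h1
  -- the coordinates of `Eh`
  have hcomE : ∀ e ∈ Eh, ∀ g ∈ Nh, (((e : V ≃ₗ[K] V) : V →ₗ[K] V) : Module.End K V) * (g : V →ₗ[K] V) =
      (g : V →ₗ[K] V) * ((e : V ≃ₗ[K] V) : V →ₗ[K] V) := fun e he g hg => LinearMap.ext fun v =>
    congrArg (fun t : V ≃ₗ[K] V => t v) (L.Eh_comm e he g hg)
  have hX0 : ∀ e : ↥Eh, ∃ X Y : ∀ i, Matrix (Fin (m i)) (Fin (m i)) K,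
      ((e : V ≃ₗ[K] V) : V →ₗ[K] V) = ∑ i, tm ad u φ i (X i) (Y i) := fun e => D.surj _ (hcomE e e.2)
  choose X Y hXY using hX0
  have hr : ∀ (e : ↥Eh) i, (((e : V ≃ₗ[K] V) : V →ₗ[K] V) : Module.End K V) * ε i = tm ad u φ i (X e i) (Y e i) := by
    intro e i
    rw [hXY e]
    change (∑ i, tm ad u φ i (X e i) (Y e i)) * tm ad u φ i 1 1 = _
    rw [sum_mul_tm S D, mul_one, one_mul]
  have hl : ∀ (e : ↥Eh) i, ε i * (((e : V ≃ₗ[K] V) : V →ₗ[K] V) : Module.End K V) = tm ad u φ i (X e i) (Y e i) := by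
    intro e i
    rw [hXY e]
    change tm ad u φ i 1 1 * (∑ i, tm ad u φ i (X e i) (Y e i)) = _
    rw [tm_mul_sum S D, mul_one, one_mul]
  have hεe : ∀ i, ∀ e ∈ Eh, ε i * ((e : V ≃ₗ[K] V) : V →ₗ[K] V) = ((e : V ≃ₗ[K] V) : V →ₗ[K] V) * ε i := by
    intro i e he
    exact (hl ⟨e, he⟩ i).trans (hr ⟨e, he⟩ i).symm
  have hε1 : ∀ i, (1 - ε i) * (1 - ε i) = 1 - ε i := by
    intro i
    rw [sub_mul, one_mul, mul_sub, mul_one, hεε, sub_self, sub_zero]
  have hε1e : ∀ i, ∀ e ∈ Eh, (1 - ε i) * ((e : V ≃ₗ[K] V) : V →ₗ[K] V) = ((e : V ≃ₗ[K] V) : V →ₗ[K] V) * (1 - ε i) := by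
    intro i e he
    rw [sub_mul, mul_sub, hεe i e he, one_mul, mul_one]
  have hadε : ∀ i, ad (ε i) = ε i := fun i => ad_eps S D i
  have hadε1 : ∀ i, ad (1 - ε i) = 1 - ε i := fun i => by rw [ad_sub S, hadε, ad_one S]
  -- the representations lie in `Gh`
  have key : ∀ (η : Module.End K V) (h1 : η * η = η)
      (h2 : ∀ e ∈ Eh, η * ((e : V ≃ₗ[K] V) : V →ₗ[K] V) = ((e : V ≃ₗ[K] V) : V →ₗ[K] V) * η) (h3 : ad η = η) (e : ↥Eh),
      toGL (rho Eh η h1 h2) e ∈ Gh := by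
    intro η h1 h2 h3 e
    rw [hGh, coe_toGL]
    refine ⟨?_, perf_hom hE ((LinearMap.det : Module.End K V →* K).comp (rho Eh η h1 h2)) e⟩
    rw [rho_apply]
    set a : Module.End K V := ((e : V ≃ₗ[K] V) : V →ₗ[K] V)
    have h4 : η * a = a * η := h2 e e.2
    have h5 : ad a * a = 1 := ((hGh e).1 (L.Eh_le e.2)).1
    have h6 : ad a * η = η * ad a := by
      have h7 := congrArg ad h4
      rw [S.mul, S.mul, h3] at h7
      exact h7
    have h8 : ad (a * η + (1 - η)) = η * ad a + (1 - η) := by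
      rw [S.add, S.mul, ad_sub S, ad_one S, h3]
    have h9 : η * ad a * (a * η) = η := by
      calc η * ad a * (a * η) = η * (ad a * a) * η := by simp only [mul_assoc]
        _ = _ := by rw [h5, mul_one, h1]
    have h10 : η * ad a * (1 - η) = 0 := by rw [mul_sub, mul_one, mul_assoc, h6, ← mul_assoc, h1, sub_self]
    have h11 : (1 - η) * (a * η) = 0 := by rw [sub_mul, one_mul, ← mul_assoc, h4, mul_assoc, h1, sub_self]
    have h12 : (1 - η) * (1 - η) = 1 - η := by rw [sub_mul, one_mul, mul_sub, mul_one, h1, sub_self, sub_zero]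
    rw [h8, add_mul, mul_add, mul_add, h9, h10, h11, h12, add_zero, zero_add, add_sub_cancel]
  have hdich : ∀ i, (∀ e : ↥Eh, (((e : V ≃ₗ[K] V) : V →ₗ[K] V) : Module.End K V) * ε i = ε i) ∨
      (∀ e : ↥Eh, (((e : V ≃ₗ[K] V) : V →ₗ[K] V) : Module.End K V) * (1 - ε i) = 1 - ε i) := by
    intro i
    let ρ₁ : ↥Eh →* ↥Gh := (toGL (rho Eh (ε i) (hεε i) (hεe i))).codRestrict Gh (key _ _ _ (hadε i))
    let ρ₂ : ↥Eh →* ↥Gh := (toGL (rho Eh (1 - ε i) (hε1 i) (hε1e i))).codRestrict Gh (key _ _ _ (hadε1 i))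
    have hρ₁ : ∀ e, (((ρ₁ e : ↥Gh) : V ≃ₗ[K] V) : V →ₗ[K] V) =
        (((e : V ≃ₗ[K] V) : V →ₗ[K] V) : Module.End K V) * ε i + (1 - ε i) := fun e => coe_toGL _ _
    have hρ₂ : ∀ e, (((ρ₂ e : ↥Gh) : V ≃ₗ[K] V) : V →ₗ[K] V) =
        (((e : V ≃ₗ[K] V) : V →ₗ[K] V) : Module.End K V) * (1 - ε i) + (1 - (1 - ε i)) := fun e => coe_toGL _ _
    have hεN : ∀ g ∈ Nh, ε i * (g : V →ₗ[K] V) = (g : V →ₗ[K] V) * ε i := hNtm i 1 1
    have hp1 : ∀ e, (∃ c : K, (((ρ₁ e : ↥Gh) : V ≃ₗ[K] V) : V →ₗ[K] V) = c • (1 : Module.End K V)) →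
        ∃ c : K, rho Eh (ε i) (hεε i) (hεe i) e = c • 1 := fun e h => h
    have hT := T3L Kt hL L ρ₁ ρ₂ (by
        intro e n hn
        refine LinearEquiv.toLinearMap_injective ?_
        change (((ρ₁ e : ↥Gh) : V ≃ₗ[K] V) : V →ₗ[K] V) * (n : V →ₗ[K] V) =
          (n : V →ₗ[K] V) * (((ρ₁ e : ↥Gh) : V ≃ₗ[K] V) : V →ₗ[K] V)
        rw [hρ₁, add_mul, mul_add, sub_mul, mul_sub, hεN n hn, one_mul, mul_one, mul_assoc, hεN n hn, ← mul_assoc,
          hcomE e e.2 n hn, mul_assoc])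
      (by
        intro e n hn
        refine LinearEquiv.toLinearMap_injective ?_
        change (((ρ₂ e : ↥Gh) : V ≃ₗ[K] V) : V →ₗ[K] V) * (n : V →ₗ[K] V) =
          (n : V →ₗ[K] V) * (((ρ₂ e : ↥Gh) : V ≃ₗ[K] V) : V →ₗ[K] V)
        have h5 : (1 - ε i) * (n : V →ₗ[K] V) = (n : V →ₗ[K] V) * (1 - ε i) := by
          rw [sub_mul, mul_sub, hεN n hn, one_mul, mul_one]
        rw [hρ₂, sub_sub_cancel, add_mul, mul_add, hεN n hn, mul_assoc, h5, ← mul_assoc,
          hcomE e e.2 n hn, mul_assoc])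
      (by
        intro e f
        refine Subtype.ext (LinearEquiv.toLinearMap_injective ?_)
        change (((ρ₁ e : ↥Gh) : V ≃ₗ[K] V) : V →ₗ[K] V) * (((ρ₂ f : ↥Gh) : V ≃ₗ[K] V) : V →ₗ[K] V) =
          (((ρ₂ f : ↥Gh) : V ≃ₗ[K] V) : V →ₗ[K] V) * (((ρ₁ e : ↥Gh) : V ≃ₗ[K] V) : V →ₗ[K] V)
        rw [hρ₁, hρ₂, sub_sub_cancel]
        set a : Module.End K V := ((e : V ≃ₗ[K] V) : V →ₗ[K] V)
        set b : Module.End K V := ((f : V ≃ₗ[K] V) : V →ₗ[K] V)
        have ha : ε i * a = a * ε i := hεe i e e.2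
        have hb : ε i * b = b * ε i := hεe i f f.2
        have h0 : ε i * (1 - ε i) = 0 := by rw [mul_sub, mul_one, hεε, sub_self]
        have h0' : (1 - ε i) * ε i = 0 := by rw [sub_mul, one_mul, hεε, sub_self]
        have e1 : a * ε i * (b * (1 - ε i)) = 0 := by
          rw [mul_assoc, ← mul_assoc (ε i), hb, mul_assoc b, h0, mul_zero, mul_zero]
        have e2 : (1 - ε i) * (b * (1 - ε i)) = b * (1 - ε i) := by
          rw [← mul_assoc, hε1e i f f.2, mul_assoc, hε1]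
        have e3 : b * (1 - ε i) * (a * ε i) = 0 := by
          rw [mul_assoc, ← mul_assoc (1 - ε i), hε1e i e e.2, mul_assoc a, h0', mul_zero, mul_zero]
        have e4 : ε i * (a * ε i) = a * ε i := by rw [← mul_assoc, ha, mul_assoc, hεε]
        have e5 : b * (1 - ε i) * (1 - ε i) = b * (1 - ε i) := by rw [mul_assoc, hε1]
        have e6 : a * ε i * ε i = a * ε i := by rw [mul_assoc, hεε]
        rw [add_mul, mul_add, mul_add, add_mul, mul_add, mul_add, e1, e2, e3, e4, e5, e6, h0, h0', zero_add, add_zero,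
          zero_add, add_zero, add_comm])
      (by
        intro e
        refine LinearEquiv.toLinearMap_injective ?_
        change ((e : V ≃ₗ[K] V) : V →ₗ[K] V) =
          (((ρ₁ e : ↥Gh) : V ≃ₗ[K] V) : V →ₗ[K] V) * (((ρ₂ e : ↥Gh) : V ≃ₗ[K] V) : V →ₗ[K] V)
        rw [hρ₁, hρ₂, sub_sub_cancel]
        set a : Module.End K V := ((e : V ≃ₗ[K] V) : V →ₗ[K] V)
        have ha : ε i * a = a * ε i := hεe i e e.2
        have h0 : ε i * (1 - ε i) = 0 := by rw [mul_sub, mul_one, hεε, sub_self]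
        have h0' : (1 - ε i) * ε i = 0 := by rw [sub_mul, one_mul, hεε, sub_self]
        have e1 : a * ε i * (a * (1 - ε i)) = 0 := by
          rw [mul_assoc, ← mul_assoc (ε i), ha, mul_assoc a, h0, mul_zero, mul_zero]
        have e2 : (1 - ε i) * (a * (1 - ε i)) = a * (1 - ε i) := by
          rw [← mul_assoc, hε1e i e e.2, mul_assoc, hε1]
        have e6 : a * ε i * ε i = a * ε i := by rw [mul_assoc, hεε]
        rw [add_mul, mul_add, mul_add, e1, e2, e6, h0', zero_add, add_zero, ← mul_add, add_sub_cancel, mul_one])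
    rcases hT with h | h
    · left
      intro e
      have h1 := eq_one_of_isSc hE (rho Eh (ε i) (hεε i) (hεe i)) (fun e => by
        obtain ⟨c, hc⟩ := (isSc_iff _).1 ((hL.ker _).1 (h e))
        rw [hρ₁] at hc
        exact ⟨c, hc⟩) e
      rw [rho_apply, ← sub_eq_zero] at h1
      rw [← sub_eq_zero, ← h1]
      abel
    · right
      intro e
      have h1 := eq_one_of_isSc hE (rho Eh (1 - ε i) (hε1 i) (hε1e i)) (fun e => by
        obtain ⟨c, hc⟩ := (isSc_iff _).1 ((hL.ker _).1 (h e))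
        rw [hρ₂] at hc
        exact ⟨c, hc⟩) e
      rw [rho_apply, ← sub_eq_zero] at h1
      rw [← sub_eq_zero, ← h1]
      abel
  -- the component
  obtain ⟨i, hi⟩ : ∃ i, ¬ ∀ e : ↥Eh, (((e : V ≃ₗ[K] V) : V →ₗ[K] V) : Module.End K V) * ε i = ε i := by
    by_contra hcon
    push Not at hcon
    obtain ⟨e, he, hne⟩ := exists_nsc Kt hL L
    apply hne
    rw [isSc_iff]
    refine ⟨1, ?_⟩
    rw [one_smul]
    have h1 : (((e : V ≃ₗ[K] V) : V →ₗ[K] V) : Module.End K V) * (∑ i, ε i) = ∑ i, ε i := by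
      rw [Finset.mul_sum]
      exact Finset.sum_congr rfl fun i _ => hcon i ⟨e, he⟩
    have h2 : ∑ i, ε i = 1 := (one_eq S D).symm
    rwa [h2, mul_one] at h1
  have htriv := (hdich i).resolve_left hi
  have hform : ∀ e : ↥Eh, ((e : V ≃ₗ[K] V) : V →ₗ[K] V) = tm ad u φ i (X e i) (Y e i) + (1 - ε i) := by
    intro e
    rw [← hr e i, ← htriv e, ← mul_add, add_sub_cancel, mul_one]
  -- multiplicativity
  have hone : X 1 i = 1 := by
    refine tm_left S D (i := i) (Y := Y 1 i) (Y' := 1) ?_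
    rw [← hr]
    change (1 : Module.End K V) * ε i = _
    rw [one_mul]
  have hmulX : ∀ e f, X (e * f) i = X e i * X f i := by
    intro e f
    refine tm_left S D (i := i) (Y := Y (e * f) i) (Y' := Y f i * Y e i) ?_
    rw [← hr, ← tm_mul S D, ← hr, ← hr]
    change ((((e : V ≃ₗ[K] V) : V →ₗ[K] V) : Module.End K V) * ((f : V ≃ₗ[K] V) : V →ₗ[K] V)) * ε i = _
    have h4 := hεe i f f.2
    set a : Module.End K V := ((e : V ≃ₗ[K] V) : V →ₗ[K] V)
    set b : Module.End K V := ((f : V ≃ₗ[K] V) : V →ₗ[K] V)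
    rw [mul_assoc a (ε i), ← mul_assoc (ε i) b, h4, mul_assoc b, hεε, mul_assoc]
  have hdet : ∀ e, (X e i).det = 1 := fun e =>
    perf_hom hE ((Matrix.detMonoidHom : Matrix (Fin (m i)) (Fin (m i)) K →* K).comp
      { toFun := fun e => X e i, map_one' := hone, map_mul' := hmulX }) e
  have hdetφ : ∃ d : ℕ, ∀ X, LinearMap.det (1 + φ i (X - 1)) = X.det ^ d := by
    refine ⟨d i, fun X => ?_⟩
    rw [← hd i X, map_sub]
    congr 1
    abel
  -- `ẑ`
  have hzc : ∀ g ∈ Nh, (((zh : V ≃ₗ[K] V) : V →ₗ[K] V) : Module.End K V) * (g : V →ₗ[K] V) =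
      (g : V →ₗ[K] V) * ((zh : V ≃ₗ[K] V) : V →ₗ[K] V) := fun g hg => LinearMap.ext fun v =>
    congrArg (fun t : V ≃ₗ[K] V => t v) (L.z_comm g hg)
  have hzz : (((zh : V ≃ₗ[K] V) : V →ₗ[K] V) : Module.End K V) * ((zh : V ≃ₗ[K] V) : V →ₗ[K] V) = 1 :=
    LinearMap.ext fun v => congrArg (fun t : V ≃ₗ[K] V => t v) L.z_sq
  have hεne : ε i ≠ 1 := by
    intro h1
    obtain ⟨Z, Z', hZ⟩ := D.surj _ hzc
    have hZi : ((zh : V ≃ₗ[K] V) : V →ₗ[K] V) = tm ad u φ i (Z i) (Z' i) := by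
      have h2 := sum_mul_tm S D Z Z' i 1 1
      have h3 : (∑ i, tm ad u φ i (Z i) (Z' i)) = ((zh : V ≃ₗ[K] V) : V →ₗ[K] V) := hZ.symm
      have h4 : tm ad u φ i 1 1 = 1 := h1
      rw [h3, h4, mul_one, mul_one, one_mul] at h2
      exact h2
    have hcomm : ∀ X, Z i * X = X * Z i := by
      intro X
      have h2 := hNtm i X 0 zh L.zN
      rw [hZi, tm_mul S D, tm_mul S D] at h2
      exact (tm_left S D h2).symm
    have hpos := D.pos i
    have : NeZero (m i) := ⟨hpos.ne'⟩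
    obtain ⟨c, hc⟩ : Z i ∈ Set.range (Matrix.scalar (Fin (m i)) : K → Matrix (Fin (m i)) (Fin (m i)) K) := by
      rw [Matrix.mem_range_scalar_iff_commute_single']
      intro a b
      exact (hcomm _).symm
    have hcc : c * c = 1 := by
      have h2 := hzz
      rw [hZi, tm_mul S D] at h2
      have h3 : tm ad u φ i (Z i * Z i) (Z' i * Z' i) = tm ad u φ i 1 1 := h2.trans h1.symm
      have h4 := tm_left S D h3
      rw [← hc, ← map_mul] at h4
      have h5 := congrFun (congrFun h4 0) 0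
      simpa using h5
    have hσc : σ c = c := by
      rcases mul_self_eq_one_iff.1 hcc with h2 | h2
      · rw [h2, map_one]
      · rw [h2, map_neg, map_one]
    have hcs : Z i = c • 1 := by
      rw [← hc, Matrix.scalar_apply, ← Matrix.smul_one_eq_diagonal]
    apply L.z_ne
    rw [isSc_iff]
    refine ⟨c, ?_⟩
    rcases hu : u i with _ | _
    · have hadz : ad ((zh : V ≃ₗ[K] V) : V →ₗ[K] V) = ((zh : V ≃ₗ[K] V) : V →ₗ[K] V) := by
        have h2 := ((hGh zh).1 (Nh_le L L.zN)).1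
        have h3 := congrArg (fun t => t * (((zh : V ≃ₗ[K] V) : V →ₗ[K] V) : Module.End K V)) h2
        simp only [mul_assoc, one_mul] at h3
        rw [hzz, mul_one] at h3
        exact h3
      have h5 : Z' i = Z i := by
        rw [hZi, ad_tm_false S hu] at hadz
        exact tm_left S D hadz
      rw [hZi, h5, hcs, ← h1]
      change tm ad u φ i (c • 1) (c • 1) = c • tm ad u φ i 1 1
      rw [tm_false hu, tm_false hu, map_smul, S.smul, hσc, smul_add]
    · rw [hZi, hcs, ← h1]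
      change tm ad u φ i (c • 1) (Z' i) = c • tm ad u φ i 1 1
      rw [tm_true hu, tm_true hu, map_smul]
  rcases hu : u i with _ | _
  · right
    have hεi : ε i = φ i 1 + ad (φ i 1) := tm_false hu 1 1
    refine ⟨m i, φ i, D.mul i, D.inj i, D.comm i, ?_, D.pair i hu, ?_, ?_, hdetφ⟩
    · rw [← hεi]
      exact hεne
    · intro T hT
      obtain ⟨Z, Z', hZ⟩ := D.surj T hT
      have hZ' : T = ∑ i, tm ad u φ i (Z i) (Z' i) := hZ
      refine ⟨Z i, ?_, ?_⟩
      · have h2 := sum_mul_tm S D Z Z' i 1 0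
        rwa [← hZ', tm_zero S, mul_one, zero_mul, tm_zero S] at h2
      · have h2 := tm_mul_sum S D Z Z' i 1 0
        rwa [← hZ', tm_zero S, one_mul, mul_zero, tm_zero S] at h2
    · intro e he
      have hYX : Y ⟨e, he⟩ i * X ⟨e, he⟩ i = 1 := by
        have h2 : ad (tm ad u φ i (X ⟨e, he⟩ i) (Y ⟨e, he⟩ i)) * tm ad u φ i (X ⟨e, he⟩ i) (Y ⟨e, he⟩ i) = ε i := by
          rw [← hr ⟨e, he⟩ i]
          have h5 : ad ((e : V ≃ₗ[K] V) : V →ₗ[K] V) * ((e : V ≃ₗ[K] V) : V →ₗ[K] V) = 1 :=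
            ((hGh e).1 (L.Eh_le he)).1
          change ad ((((e : V ≃ₗ[K] V) : V →ₗ[K] V) : Module.End K V) * ε i) *
            ((((e : V ≃ₗ[K] V) : V →ₗ[K] V) : Module.End K V) * ε i) = ε i
          set a : Module.End K V := ((e : V ≃ₗ[K] V) : V →ₗ[K] V)
          rw [S.mul, hadε]
          calc ε i * ad a * (a * ε i) = ε i * (ad a * a) * ε i := by simp only [mul_assoc]
            _ = _ := by rw [h5, mul_one, hεε]
        rw [ad_tm_false S hu, tm_mul S D] at h2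
        exact tm_left S D h2
      let U : Matrix.SpecialLinearGroup (Fin (m i)) K := ⟨X ⟨e, he⟩ i, hdet _⟩
      refine ⟨U, ?_⟩
      have hinv : ((U⁻¹ : Matrix.SpecialLinearGroup (Fin (m i)) K) : Matrix (Fin (m i)) (Fin (m i)) K) = Y ⟨e, he⟩ i := by
        have h3 : Y ⟨e, he⟩ i * (U : Matrix (Fin (m i)) (Fin (m i)) K) = 1 := hYX
        have h4 : (U : Matrix (Fin (m i)) (Fin (m i)) K) *
            ((U⁻¹ : Matrix.SpecialLinearGroup (Fin (m i)) K) : Matrix (Fin (m i)) (Fin (m i)) K) = 1 := by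
          rw [← Matrix.SpecialLinearGroup.coe_mul, mul_inv_cancel, Matrix.SpecialLinearGroup.coe_one]
        calc _ = (Y ⟨e, he⟩ i * (U : Matrix (Fin (m i)) (Fin (m i)) K)) *
              ((U⁻¹ : Matrix.SpecialLinearGroup (Fin (m i)) K) : Matrix (Fin (m i)) (Fin (m i)) K) := by rw [h3, one_mul]
          _ = _ := by rw [mul_assoc, h4, mul_one]
      have hUc : (U : Matrix (Fin (m i)) (Fin (m i)) K) = X ⟨e, he⟩ i := rfl
      rw [hinv, hUc]
      refine (hform ⟨e, he⟩).trans ?_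
      rw [tm_false hu, hεi, map_sub, map_sub, ad_sub S]
      abel
  · left
    have hεi : ε i = φ i 1 := tm_true hu 1 1
    refine ⟨m i, φ i, D.mul i, D.inj i, D.comm i, ?_, D.star i hu, ?_, hdetφ⟩
    · rw [← hεi]
      exact hεne
    · intro e he
      refine ⟨⟨X ⟨e, he⟩ i, hdet _⟩, ?_⟩
      refine (hform ⟨e, he⟩).trans ?_
      rw [tm_true hu, hεi]
      change _ = 1 + φ i (X ⟨e, he⟩ i - 1)
      rw [map_sub]
      abel

end Main

end Cfsg.Agent.H330.C3
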