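import Cfsg.Agent.H330.C3.CompU

/-!
# S1920, case B, `PSU_n(q)`: the pair case (helper330)

* `pow_four` : `a ^ 4 ∈ ⟨s⟩` for the 2-elements `a` of `C_G(N0)`;
* `CompP.false` : the pair case is impossible.
-/

set_option autoImplicit false
set_option linter.unusedSectionVars false

open Subgroup Module

namespace Cfsg.Agent.H330.C3

open Cfsg.Agent.H415.C3 Cfsg.Agent.H601.C3 Cfsg.Agent.H375.C3

theorem perm_two {τ : Equiv.Perm (Fin 6)} {k : ℕ} (h : τ ^ 2 ^ k = 1) : τ ^ 4 = 1 := by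
  rw [← orderOf_dvd_iff_pow_eq_one, ← Equiv.Perm.lcm_cycleType, Multiset.lcm_dvd]
  intro n hn
  have h1 : n ∣ 2 ^ k := (Equiv.Perm.dvd_of_mem_cycleType hn).trans (orderOf_dvd_of_pow_eq_one h)
  have h2 : n ≤ 6 := by
    refine (Equiv.Perm.le_card_support_of_mem_cycleType hn).trans ?_
    exact (Finset.card_le_univ _).trans (by rw [Fintype.card_fin])
  obtain ⟨i, -, rfl⟩ := (Nat.dvd_prime_pow Nat.prime_two).1 h1
  have h3 : i ≤ 2 := by
    by_contra hcon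
    have h4 : 2 ^ 3 ≤ 2 ^ i := Nat.pow_le_pow_right (by norm_num) (by omega)
    omega
  exact (pow_dvd_pow 2 h3).trans (by norm_num)

section Kt

variable {G : Type*} [Group G] {N0 A E : Subgroup G} {z s x r : G} {ψ : ↥A →* Equiv.Perm (Fin 6)}

/-- the fourth powers of the 2-elements of `C_G(N0)` lie in `⟨s⟩` -/
theorem pow_four [Finite G] (Kt : Kit N0 A E z s x r ψ) {g : G} (h : ∀ n ∈ N0, g * n = n * g) {k : ℕ}
    (hk : g ^ 2 ^ k = 1) : g ^ 4 ∈ zpowers s := by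
  have h1 : ∀ n ∈ N0, g ^ 4 * n = n * g ^ 4 := fun n hn => ((show Commute g n from h n hn).pow_left 4).eq
  refine Kt.T4 h1 (k := k) (by rw [← pow_mul, mul_comm, pow_mul, hk, one_pow]) ?_
  have h2 : (⟨g ^ 4, Kt.comm_mem h1⟩ : ↥A) = ⟨g, Kt.comm_mem h⟩ ^ 4 := rfl
  rw [h2, map_pow]
  refine perm_two (k := k) ?_
  rw [← map_pow]
  have h3 : (⟨g, Kt.comm_mem h⟩ : ↥A) ^ 2 ^ k = 1 := Subtype.ext hk
  rw [h3, map_one]

end Kt

variable {K : Type*} [Field K] {V : Type*} [AddCommGroup V] [Module K V]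

/-- the endomorphism of an automorphism -/
abbrev co (g : V ≃ₗ[K] V) : Module.End K V := ((g : V ≃ₗ[K] V) : V →ₗ[K] V)

theorem co_mul (g h : V ≃ₗ[K] V) : co (g * h) = co g * co h := rfl

theorem co_one : co (1 : V ≃ₗ[K] V) = 1 := rfl

theorem co_inv (g : V ≃ₗ[K] V) : co g * co g⁻¹ = 1 := LinearMap.ext fun v => g.apply_symm_apply v

theorem co_inv' (g : V ≃ₗ[K] V) : co g⁻¹ * co g = 1 := LinearMap.ext fun v => g.symm_apply_apply v

theorem co_inj {g h : V ≃ₗ[K] V} (e : co g = co h) : g = h := LinearEquiv.toLinearMap_injective e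

theorem isSc_co (g : V ≃ₗ[K] V) : IsSc g ↔ ∃ c : K, co g = c • (1 : Module.End K V) := isSc_iff g

section Unit

variable {σ : K ≃+* K} {ad : Module.End K V → Module.End K V}

theorem ad_co {g : V ≃ₗ[K] V} (h : ad (co g) * co g = 1) : ad (co g) = co g⁻¹ := by
  calc ad (co g) = ad (co g) * (co g * co g⁻¹) := by rw [co_inv, mul_one]
    _ = _ := by rw [← mul_assoc, h, one_mul]

theorem ad_comm (S : Star σ ad) {N : Subgroup (V ≃ₗ[K] V)} (hN : ∀ g ∈ N, ad (co g) * co g = 1)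
    {T : Module.End K V} (hT : ∀ g ∈ N, T * co g = co g * T) : ∀ g ∈ N, ad T * co g = co g * ad T := by
  intro g hg
  have h1 := congrArg ad (hT g hg)
  rw [S.mul, S.mul, ad_co (hN g hg)] at h1
  calc ad T * co g = (co g * co g⁻¹) * (ad T * co g) := by rw [co_inv, one_mul]
    _ = co g * (co g⁻¹ * ad T) * co g := by simp only [mul_assoc]
    _ = co g * (ad T * co g⁻¹) * co g := by rw [h1]
    _ = co g * ad T * (co g⁻¹ * co g) := by simp only [mul_assoc]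
    _ = _ := by rw [co_inv', mul_one]

end Unit

section Lift

variable {G : Type*} [Group G]
variable {Gh : Subgroup (V ≃ₗ[K] V)} {π : ↥Gh →* G} {N0 A E : Subgroup G} {z s x r : G}
  {ψ : ↥A →* Equiv.Perm (Fin 6)} {Nh Eh : Subgroup (V ≃ₗ[K] V)} {zh sh xh rh : V ≃ₗ[K] V}

/-- the fourth powers of the 2-elements of `Gh` commuting with `Nh` lie in `Nh` -/
theorem pow_four_mem [Finite G] (Kt : Kit N0 A E z s x r ψ) (hL : Lin Gh π)
    (L : LKit Gh π N0 A E z s x r Nh Eh zh sh xh rh) {g : V ≃ₗ[K] V} (hg : g ∈ Gh)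
    (hc : ∀ n ∈ Nh, g * n = n * g) {k : ℕ} (hk : g ^ 2 ^ k = 1) : g ^ 4 ∈ Nh := by
  have h1 := pow_four Kt (comm_pi hL L hg hc) (k := k) (by
    rw [← map_pow]
    have h3 : (⟨g, hg⟩ : ↥Gh) ^ 2 ^ k = 1 := Subtype.ext hk
    rw [h3, map_one])
  rw [L.mem_Nh]
  refine ⟨pow_mem hg 4, ?_⟩
  rw [← map_pow] at h1
  exact (zpowers_le.2 Kt.sN) h1

/-- the 2-elements of `Gh` commuting with `Nh` and `Eh` -/
theorem mem_zpowers_s [Finite G] (Kt : Kit N0 A E z s x r ψ) (hL : Lin Gh π)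
    (L : LKit Gh π N0 A E z s x r Nh Eh zh sh xh rh) {g : V ≃ₗ[K] V} (hg : g ∈ Gh)
    (hc : ∀ n ∈ Nh, g * n = n * g) (hE : ∀ e ∈ Eh, g * e = e * g) {k : ℕ} (hk : g ^ 2 ^ k = 1) :
    π ⟨g, hg⟩ ∈ zpowers s := by
  refine Kt.T4E (comm_pi hL L hg hc) (k := k) (by
    rw [← map_pow]
    have h3 : (⟨g, hg⟩ : ↥Gh) ^ 2 ^ k = 1 := Subtype.ext hk
    rw [h3, map_one]) ?_
  intro e he
  obtain ⟨e', he', h1⟩ := L.Eh_surj e he
  rw [← h1 (L.Eh_le he'), ← map_mul, ← map_mul]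
  exact congrArg π (Subtype.ext (hE e' he'))

end Lift

section Pair

variable {σ : K ≃+* K} {ad : Module.End K V → Module.End K V} {N E : Subgroup (V ≃ₗ[K] V)} {m : ℕ}
  {j : Matrix (Fin m) (Fin m) K →ₗ[K] Module.End K V}

/-- the unitary element of a unit of `M_m(K)` -/
def QP (S : Star σ ad) (C : CompP ad N E m j) : (Matrix (Fin m) (Fin m) K)ˣ →* Module.End K V where
  toFun U := 1 + j ((U : Matrix (Fin m) (Fin m) K) - 1) + ad (j (((U⁻¹ : (Matrix (Fin m) (Fin m) K)ˣ) :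
    Matrix (Fin m) (Fin m) K) - 1))
  map_one' := by
    rw [inv_one, Units.val_one, sub_self, map_zero, ad_zero S, add_zero, add_zero]
  map_mul' U W := by
    have h1 : ((U * W : (Matrix (Fin m) (Fin m) K)ˣ) : Matrix (Fin m) (Fin m) K) - 1 =
        ((U : Matrix (Fin m) (Fin m) K) - 1) + ((W : Matrix (Fin m) (Fin m) K) - 1) +
          ((U : Matrix (Fin m) (Fin m) K) - 1) * ((W : Matrix (Fin m) (Fin m) K) - 1) := by
      rw [Units.val_mul]; noncomm_ring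
    have h2 : (((U * W)⁻¹ : (Matrix (Fin m) (Fin m) K)ˣ) : Matrix (Fin m) (Fin m) K) - 1 =
        (((U⁻¹ : (Matrix (Fin m) (Fin m) K)ˣ) : Matrix (Fin m) (Fin m) K) - 1) +
        (((W⁻¹ : (Matrix (Fin m) (Fin m) K)ˣ) : Matrix (Fin m) (Fin m) K) - 1) +
        (((W⁻¹ : (Matrix (Fin m) (Fin m) K)ˣ) : Matrix (Fin m) (Fin m) K) - 1) *
          (((U⁻¹ : (Matrix (Fin m) (Fin m) K)ˣ) : Matrix (Fin m) (Fin m) K) - 1) := by
      rw [mul_inv_rev, Units.val_mul]; noncomm_ring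
    rw [h1, h2]
    set a := (U : Matrix (Fin m) (Fin m) K) - 1
    set b := (W : Matrix (Fin m) (Fin m) K) - 1
    set a' := ((U⁻¹ : (Matrix (Fin m) (Fin m) K)ˣ) : Matrix (Fin m) (Fin m) K) - 1
    set b' := ((W⁻¹ : (Matrix (Fin m) (Fin m) K)ˣ) : Matrix (Fin m) (Fin m) K) - 1
    rw [map_add, map_add, C.mul, map_add, map_add, C.mul, S.add, S.add, S.mul]
    have e1 := (C.pair a b').1
    have e2 := (C.pair a' b).2
    simp only [mul_add, add_mul, mul_one, one_mul, e1, e2, add_zero]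
    abel

theorem QP_apply (S : Star σ ad) (C : CompP ad N E m j) (U : (Matrix (Fin m) (Fin m) K)ˣ) :
    QP S C U = 1 + j ((U : Matrix (Fin m) (Fin m) K) - 1) + ad (j (((U⁻¹ : (Matrix (Fin m) (Fin m) K)ˣ) :
    Matrix (Fin m) (Fin m) K) - 1)) := rfl

theorem ad_QP (S : Star σ ad) (C : CompP ad N E m j) (U : (Matrix (Fin m) (Fin m) K)ˣ) :
    ad (QP S C U) = QP S C U⁻¹ := by
  rw [QP_apply, QP_apply, S.add, S.add, S.inv, ad_one S, inv_inv]
  abel

/-- the element of `GL(V)` -/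
noncomputable def LP (S : Star σ ad) (C : CompP ad N E m j) : (Matrix (Fin m) (Fin m) K)ˣ →* (V ≃ₗ[K] V) :=
  toGL (QP S C)

theorem co_LP (S : Star σ ad) (C : CompP ad N E m j) (U : (Matrix (Fin m) (Fin m) K)ˣ) :
    co (LP S C U) = QP S C U := coe_toGL _ _

theorem LP_unitary (S : Star σ ad) (C : CompP ad N E m j) (U : (Matrix (Fin m) (Fin m) K)ˣ) :
    ad (co (LP S C U)) * co (LP S C U) = 1 := by
  rw [co_LP, ad_QP S C U, ← map_mul, inv_mul_cancel, map_one]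

theorem LP_comm (S : Star σ ad) (C : CompP ad N E m j) (hN : ∀ g ∈ N, ad (co g) * co g = 1)
    (U : (Matrix (Fin m) (Fin m) K)ˣ) : ∀ n ∈ N, LP S C U * n = n * LP S C U := by
  intro n hn
  apply co_inj
  rw [co_mul, co_mul, co_LP, QP_apply]
  have h1 := C.comm ((U : Matrix (Fin m) (Fin m) K) - 1) n hn
  have h2 := ad_comm S hN (C.comm (((U⁻¹ : (Matrix (Fin m) (Fin m) K)ˣ) : Matrix (Fin m) (Fin m) K) - 1)) n hn
  rw [add_mul, add_mul, mul_add, mul_add, one_mul, mul_one, h1, h2]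

theorem LP_E (S : Star σ ad) (C : CompP ad N E m j) {e : V ≃ₗ[K] V} (he : e ∈ E) :
    ∃ U : Matrix.SpecialLinearGroup (Fin m) K, LP S C (Matrix.SpecialLinearGroup.toGL U) = e := by
  obtain ⟨U, hU⟩ := C.E e he
  refine ⟨U, co_inj ?_⟩
  rw [co_LP, QP_apply]
  refine Eq.trans ?_ hU.symm
  rfl

theorem eps_ne (C : CompP ad N E m j) {c : K} (h : 1 - (j 1 + ad (j 1)) = c • (1 - (j 1 + ad (j 1)))) :
    c = 1 := by
  have h1 : (1 - c) • (1 - (j 1 + ad (j 1))) = 0 := by rw [sub_smul, one_smul, ← h, sub_self]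
  rcases smul_eq_zero.1 h1 with h2 | h2
  · exact (sub_eq_zero.1 h2).symm
  · exact absurd (sub_eq_zero.1 h2).symm C.ne

theorem QP_sc (S : Star σ ad) (C : CompP ad N E m j) {U : (Matrix (Fin m) (Fin m) K)ˣ} {c : K}
    (h : QP S C U = c • 1) : U = 1 := by
  have h1 : ∀ X, j X * (1 - (j 1 + ad (j 1))) = 0 := by
    intro X
    rw [mul_sub, mul_one, mul_add, ← C.mul, mul_one, (C.pair X 1).1, add_zero, sub_self]
  have h2 : ∀ X, ad (j X) * (1 - (j 1 + ad (j 1))) = 0 := by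
    intro X
    rw [mul_sub, mul_one, mul_add, (C.pair X 1).2, zero_add, ← S.mul, ← C.mul, one_mul, sub_self]
  have h3 := congrArg (fun t => t * (1 - (j 1 + ad (j 1)))) h
  simp only [QP_apply, add_mul, one_mul, h1, h2, add_zero, smul_mul_assoc] at h3
  have hc := eps_ne C h3
  rw [hc, one_smul, QP_apply, add_assoc, add_eq_left] at h
  have h4 := congrArg (fun t => t * j 1) h
  simp only [add_mul, zero_mul] at h4
  rw [(C.pair _ 1).2, add_zero, ← C.mul, mul_one] at h4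
  have h5 := C.inj (h4.trans (map_zero j).symm)
  exact Units.ext (sub_eq_zero.1 h5)

theorem det_LP (S : Star σ ad) (C : CompP ad N E m j) (hdet : ∀ T, LinearMap.det (ad T) = σ (LinearMap.det T)) {d : ℕ}
    (hd : ∀ X, LinearMap.det (1 + j (X - 1)) = X.det ^ d) (U : (Matrix (Fin m) (Fin m) K)ˣ) :
    LinearMap.det (co (LP S C U)) = (U : Matrix (Fin m) (Fin m) K).det ^ d *
      σ ((((U⁻¹ : (Matrix (Fin m) (Fin m) K)ˣ) : Matrix (Fin m) (Fin m) K)).det ^ d) := by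
  rw [co_LP, ← hd, ← hd, ← hdet, ← map_mul, S.add, ad_one S, QP_apply]
  congr 1
  rw [mul_add, mul_one, add_mul, one_mul, (C.pair _ _).1, add_zero]

end Pair

end Cfsg.Agent.H330.C3
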