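import Cfsg.Agent.H330.C3.KillP

/-!
# S1920, case B, `PSU_n(q)`: the pair case is impossible (helper330)
-/

set_option autoImplicit false
set_option linter.unusedSectionVars false

open Subgroup Module

namespace Cfsg.Agent.H330.C3

open Cfsg.Agent.H415.C3 Cfsg.Agent.H601.C3 Cfsg.Agent.H375.C3

section Field

variable {K : Type*} [Field K]

theorem odd_q [Finite K] {q : ℕ} (hq : Nat.card K = q ^ 2) (h2 : (2 : K) ≠ 0) : q % 2 = 1 := by
  have := Fintype.ofFinite K
  have h3 : ringChar K ≠ 2 := by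
    intro h
    apply h2
    have h4 : ((2 : ℕ) : K) = 0 := by rw [← h]; exact ringChar.Nat.cast_ringChar
    exact_mod_cast h4
  have h4 := FiniteField.odd_card_of_char_ne_two h3
  rw [← Nat.card_eq_fintype_card, hq] at h4
  by_contra hcon
  have h5 : q % 2 = 0 := by omega
  have h6 : q ^ 2 % 2 = 0 := by rw [Nat.pow_mod, h5]
  omega

/-- an element of order 8 -/
theorem exists_eight [Finite K] {q : ℕ} (hq : Nat.card K = q ^ 2) (h2 : (2 : K) ≠ 0) : ∃ l : Kˣ, orderOf l = 8 := by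
  obtain ⟨g, hg⟩ := IsCyclic.exists_generator (α := Kˣ)
  have h1 : orderOf g = q ^ 2 - 1 := by
    rw [orderOf_eq_card_of_forall_mem_zpowers hg, Nat.card_units, hq]
  have h3 : 8 ∣ q ^ 2 - 1 := by
    have h4 := odd_q hq h2
    obtain ⟨k, hk⟩ : ∃ k, q = 2 * k + 1 := ⟨q / 2, by omega⟩
    have h5 : q ^ 2 - 1 = 4 * (k * (k + 1)) := by
      rw [hk]
      have : (2 * k + 1) ^ 2 = 4 * (k * (k + 1)) + 1 := by ring
      omega
    rw [h5]
    obtain ⟨t, ht⟩ := Nat.even_mul_succ_self k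
    exact ⟨t, by rw [ht]; ring⟩
  obtain ⟨t, ht⟩ := h3
  have hpos : 0 < orderOf g := orderOf_pos g
  have ht0 : t ≠ 0 := by
    rintro rfl
    omega
  refine ⟨g ^ t, ?_⟩
  rw [orderOf_pow_of_dvd ht0 ⟨8, by rw [h1, ht]; ring⟩, h1, ht]
  exact Nat.mul_div_cancel _ (Nat.pos_of_ne_zero ht0)

end Field

variable {K : Type*} [Field K] {V : Type*} [AddCommGroup V] [Module K V]

section Eps

variable {σ : K ≃+* K} {ad : Module.End K V → Module.End K V} {N E : Subgroup (V ≃ₗ[K] V)} {m : ℕ}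
  {j : Matrix (Fin m) (Fin m) K →ₗ[K] Module.End K V}

theorem conj_comm_mem {N : Subgroup (V ≃ₗ[K] V)} {g : V ≃ₗ[K] V} (hg : g ∈ normalizer (N : Set (V ≃ₗ[K] V)))
    {T : Module.End K V} (hT : ∀ n ∈ N, T * co n = co n * T) :
    ∀ n ∈ N, (co g * T * co g⁻¹) * co n = co n * (co g * T * co g⁻¹) := by
  intro n hn
  have h1 : g⁻¹ * n * g ∈ N := by
    have h2 := (mem_normalizer_iff.1 (inv_mem hg) n).1 hn
    rwa [inv_inv] at h2
  have h3 := hT _ h1
  have h4 : co (g⁻¹ * n * g) = co g⁻¹ * co n * co g := rfl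
  rw [h4] at h3
  calc co g * T * co g⁻¹ * co n = co g * T * co g⁻¹ * co n * (co g * co g⁻¹) := by rw [co_inv, mul_one]
    _ = co g * (T * (co g⁻¹ * co n * co g)) * co g⁻¹ := by simp only [mul_assoc]
    _ = co g * ((co g⁻¹ * co n * co g) * T) * co g⁻¹ := by rw [h3]
    _ = (co g * co g⁻¹) * co n * (co g * T * co g⁻¹) := by simp only [mul_assoc]
    _ = _ := by rw [co_inv, one_mul]

/-- half of the invariance of `ε` -/
theorem eps_half (S : Star σ ad) (C : CompP ad N E m j) (hm : 0 < m) (hN : ∀ g ∈ N, ad (co g) * co g = 1)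
    (hE : ∀ e ∈ E, ∀ n ∈ N, co e * co n = co n * co e) (hEn : ∃ e ∈ E, e ≠ 1)
    {g : V ≃ₗ[K] V} (hg : ad (co g) * co g = 1) (hgN : g ∈ normalizer (N : Set (V ≃ₗ[K] V)))
    (hgE : g ∈ normalizer (E : Set (V ≃ₗ[K] V))) :
    (co g * (j 1 + ad (j 1)) * co g⁻¹) * (j 1 + ad (j 1)) = j 1 + ad (j 1) ∧
    (j 1 + ad (j 1)) * (co g * (j 1 + ad (j 1)) * co g⁻¹) = j 1 + ad (j 1) := by
  obtain ⟨ε, hε⟩ : ∃ ε, ε = j 1 + ad (j 1) := ⟨_, rfl⟩
  rw [← hε]
  have hjj : j 1 * j 1 = j 1 := by rw [← C.mul, one_mul]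
  have haa : ad (j 1) * ad (j 1) = ad (j 1) := by rw [← S.mul, hjj]
  have hja := (C.pair 1 1).1
  have haj := (C.pair 1 1).2
  have hεε : ε * ε = ε := by
    rw [hε, mul_add, add_mul, add_mul, hjj, haa, hja, haj, add_zero, zero_add]
  have hadε : ad ε = ε := by rw [hε, S.add, S.inv, add_comm]
  -- `j 1` and `ad (j 1)` commute with the commutant
  have hc1 : ∀ T : Module.End K V, (∀ n ∈ N, T * co n = co n * T) → T * j 1 = j 1 * T := by
    intro T hT
    obtain ⟨Z, h1, h2⟩ := C.loc T hT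
    rw [h1, h2]
  have hc2 : ∀ T : Module.End K V, (∀ n ∈ N, T * co n = co n * T) → T * ad (j 1) = ad (j 1) * T := by
    intro T hT
    have h1 := congrArg ad (hc1 (ad T) (ad_comm S hN hT))
    rw [S.mul, S.mul, S.inv] at h1
    exact h1.symm
  have hcε : ∀ T : Module.End K V, (∀ n ∈ N, T * co n = co n * T) → T * ε = ε * T := by
    intro T hT
    rw [hε, mul_add, add_mul, hc1 T hT, hc2 T hT]
  have hεN : ∀ n ∈ N, ε * co n = co n * ε := by
    intro n hn
    rw [hε, add_mul, mul_add, C.comm 1 n hn, ad_comm S hN (C.comm 1) n hn]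
  -- the conjugate
  obtain ⟨ε', hε'⟩ : ∃ ε', ε' = co g * ε * co g⁻¹ := ⟨_, rfl⟩
  rw [← hε']
  have hε'N : ∀ n ∈ N, ε' * co n = co n * ε' := by
    rw [hε']
    exact conj_comm_mem hgN hεN
  have hε'ε' : ε' * ε' = ε' := by
    rw [hε']
    calc co g * ε * co g⁻¹ * (co g * ε * co g⁻¹) = co g * ε * (co g⁻¹ * co g) * ε * co g⁻¹ := by simp only [mul_assoc]
      _ = co g * (ε * ε) * co g⁻¹ := by rw [co_inv', mul_one]; simp only [mul_assoc]
      _ = _ := by rw [hεε]
  have hadε' : ad ε' = ε' := by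
    have h1 : ad (co g⁻¹) = co g := by
      rw [← ad_co hg, S.inv]
    rw [hε', S.mul, S.mul, hadε, h1, ad_co hg, mul_assoc]
  have hcε' : ∀ T : Module.End K V, (∀ n ∈ N, T * co n = co n * T) → T * ε' = ε' * T := by
    intro T hT
    have h1 := hcε _ (conj_comm_mem (inv_mem hgN) hT)
    rw [inv_inv] at h1
    rw [hε']
    calc T * (co g * ε * co g⁻¹) = (co g * co g⁻¹) * T * (co g * ε * co g⁻¹) := by rw [co_inv, one_mul]
      _ = co g * (co g⁻¹ * T * co g * ε) * co g⁻¹ := by simp only [mul_assoc]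
      _ = co g * (ε * (co g⁻¹ * T * co g)) * co g⁻¹ := by rw [h1]
      _ = co g * ε * co g⁻¹ * T * (co g * co g⁻¹) := by simp only [mul_assoc]
      _ = _ := by rw [co_inv, mul_one]
  obtain ⟨Z, hZ1, hZ2⟩ := C.loc ε' hε'N
  have hZc : ∀ X, Z * X = X * Z := by
    intro X
    apply C.inj
    rw [C.mul, C.mul]
    have h1 := hcε' (j X) (C.comm X)
    calc j Z * j X = ε' * j 1 * j X := by rw [hZ1]
      _ = ε' * j X := by rw [mul_assoc, ← C.mul, one_mul]
      _ = j X * ε' := h1.symm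
      _ = j X * (j 1 * ε') := by rw [← mul_assoc, ← C.mul, mul_one]
      _ = _ := by rw [hZ2]
  have hne : NeZero m := ⟨hm.ne'⟩
  obtain ⟨c, hc⟩ : Z ∈ Set.range (Matrix.scalar (Fin m) : K → Matrix (Fin m) (Fin m) K) := by
    rw [Matrix.mem_range_scalar_iff_commute_single']
    intro a b
    exact (hZc _).symm
  have hZZ : Z * Z = Z := by
    apply C.inj
    rw [C.mul]
    calc j Z * j Z = (j 1 * ε') * (ε' * j 1) := by rw [hZ1, hZ2]
      _ = j 1 * (ε' * ε') * j 1 := by simp only [mul_assoc]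
      _ = (j 1 * ε') * j 1 := by rw [hε'ε']
      _ = j Z * j 1 := by rw [hZ2]
      _ = _ := by rw [← C.mul, mul_one]
  have hcc : c * c = c := by
    rw [← hc, ← map_mul] at hZZ
    have h5 := congrFun (congrFun hZZ 0) 0
    simpa using h5
  have hc1' : c = 1 := by
    rcases eq_or_ne c 0 with h0 | h0
    · exfalso
      rw [h0, map_zero] at hc
      have hj0 : ε' * j 1 = 0 := by rw [hZ1, ← hc, map_zero]
      -- `Eh` acts trivially
      obtain ⟨e, he, hne1⟩ := hEn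
      apply hne1
      obtain ⟨U, hU⟩ := C.E e he
      have hkill : ∀ f ∈ E, (co f - 1) * (1 - ε) = 0 := by
        intro f hf
        obtain ⟨W, hW⟩ := C.E f hf
        have h1 : ∀ X, j X * (1 - ε) = 0 := by
          intro X
          rw [hε, mul_sub, mul_one, mul_add, ← C.mul, mul_one, (C.pair X 1).1, add_zero, sub_self]
        have h2 : ∀ X, ad (j X) * (1 - ε) = 0 := by
          intro X
          rw [hε, mul_sub, mul_one, mul_add, (C.pair X 1).2, zero_add, ← S.mul, ← C.mul, one_mul, sub_self]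
        have h3 : co f - 1 = j ((W : Matrix (Fin m) (Fin m) K) - 1) + ad (j (((W⁻¹ : Matrix.SpecialLinearGroup (Fin m) K) :
            Matrix (Fin m) (Fin m) K) - 1)) := by
          change ((f : V ≃ₗ[K] V) : V →ₗ[K] V) - 1 = _
          rw [hW]
          abel
        rw [h3, add_mul, h1, h2, add_zero]
      have hkill' : (co e - 1) * (1 - ε') = 0 := by
        have h1 : g⁻¹ * e * g ∈ E := by
          have h2 := (mem_normalizer_iff.1 (inv_mem hgE) e).1 he
          rwa [inv_inv] at h2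
        have h2 := hkill _ h1
        have h3 : co (g⁻¹ * e * g) - 1 = co g⁻¹ * (co e - 1) * co g := by
          rw [mul_sub, sub_mul, mul_one, co_inv']
          rfl
        rw [h3] at h2
        have h4 : co g * (co g⁻¹ * (co e - 1) * co g * (1 - ε)) * co g⁻¹ = 0 := by rw [h2, mul_zero, zero_mul]
        have h5 : co g * (co g⁻¹ * (co e - 1) * co g * (1 - ε)) * co g⁻¹ = (co e - 1) * (co g * (1 - ε) * co g⁻¹) := by
          calc _ = (co g * co g⁻¹) * (co e - 1) * (co g * (1 - ε) * co g⁻¹) := by simp only [mul_assoc]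
            _ = _ := by rw [co_inv, one_mul]
        have h6 : co g * (1 - ε) * co g⁻¹ = 1 - ε' := by rw [mul_sub, sub_mul, mul_one, co_inv, hε']
        rw [h5, h6] at h4
        exact h4
      have h7 : (co e - 1) * j 1 = 0 := by
        have h8 : j 1 = (1 - ε') * j 1 := by rw [sub_mul, one_mul, hj0, sub_zero]
        rw [h8, ← mul_assoc, hkill', zero_mul]
      have h8 : (co e - 1) * j 1 = j ((U : Matrix (Fin m) (Fin m) K) - 1) := by
        have h9 : co e - 1 = j ((U : Matrix (Fin m) (Fin m) K) - 1) + ad (j (((U⁻¹ : Matrix.SpecialLinearGroup (Fin m) K) :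
            Matrix (Fin m) (Fin m) K) - 1)) := by
          change ((e : V ≃ₗ[K] V) : V →ₗ[K] V) - 1 = _
          rw [hU]
          abel
        rw [h9, add_mul, ← C.mul, mul_one, (C.pair _ 1).2, add_zero]
      have h9 : (U : Matrix (Fin m) (Fin m) K) - 1 = 0 := C.inj (by rw [← h8, h7, map_zero])
      have h10 : U = 1 := Subtype.ext (sub_eq_zero.1 h9)
      apply co_inj
      rw [co_one]
      change ((e : V ≃ₗ[K] V) : V →ₗ[K] V) = 1
      rw [hU, h10, inv_one, Matrix.SpecialLinearGroup.coe_one, sub_self, map_zero, ad_zero S, add_zero, add_zero]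
    · exact mul_left_cancel₀ h0 (hcc.trans (mul_one c).symm)
  have hZ1' : Z = 1 := by rw [← hc, hc1', map_one]
  have e1 : ε' * j 1 = j 1 := by rw [hZ1, hZ1']
  have e2 : j 1 * ε' = j 1 := by rw [hZ2, hZ1']
  have e3 : ad (j 1) * ε' = ad (j 1) := by
    have h1 := congrArg ad e1
    rwa [S.mul, hadε'] at h1
  have e4 : ε' * ad (j 1) = ad (j 1) := by
    have h1 := congrArg ad e2
    rwa [S.mul, hadε'] at h1
  constructor
  · rw [hε, mul_add, e1, e4]
  · rw [hε, add_mul, e2, e3]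

/-- **`ε` is invariant** -/
theorem eps_inv (S : Star σ ad) (C : CompP ad N E m j) (hm : 0 < m) (hN : ∀ g ∈ N, ad (co g) * co g = 1)
    (hE : ∀ e ∈ E, ∀ n ∈ N, co e * co n = co n * co e) (hEn : ∃ e ∈ E, e ≠ 1)
    {g : V ≃ₗ[K] V} (hg : ad (co g) * co g = 1) (hg' : ad (co g⁻¹) * co g⁻¹ = 1)
    (hgN : g ∈ normalizer (N : Set (V ≃ₗ[K] V))) (hgE : g ∈ normalizer (E : Set (V ≃ₗ[K] V))) :
    co g * (j 1 + ad (j 1)) * co g⁻¹ = j 1 + ad (j 1) := by
  have h1 := (eps_half S C hm hN hE hEn hg hgN hgE).1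
  have h2 := (eps_half S C hm hN hE hEn hg' (inv_mem hgN) (inv_mem hgE)).1
  rw [inv_inv] at h2
  set ε := j 1 + ad (j 1)
  -- conjugate the second identity
  have h3 : ε * (co g * ε * co g⁻¹) = co g * ε * co g⁻¹ := by
    calc ε * (co g * ε * co g⁻¹) = (co g * co g⁻¹) * ε * (co g * ε * co g⁻¹) := by rw [co_inv, one_mul]
      _ = co g * ((co g⁻¹ * ε * co g) * ε) * co g⁻¹ := by simp only [mul_assoc]
      _ = _ := by rw [h2]
  rw [← h3]
  exact (eps_half S C hm hN hE hEn hg hgN hgE).2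

end Eps

section Main

variable {G : Type*} [Group G]
variable {Gh : Subgroup (V ≃ₗ[K] V)} {π : ↥Gh →* G} {N0 A E : Subgroup G} {z s x r : G}
  {ψ : ↥A →* Equiv.Perm (Fin 6)} {Nh Eh : Subgroup (V ≃ₗ[K] V)} {zh sh xh rh : V ≃ₗ[K] V}

/-- **The pair case is impossible.** -/
theorem CompP.false [Finite G] [Finite K] (h2 : (2 : K) ≠ 0) (Kt : Kit N0 A E z s x r ψ) (hL : Lin Gh π)
    (L : LKit Gh π N0 A E z s x r Nh Eh zh sh xh rh)
    {σ : K ≃+* K} {ad : Module.End K V → Module.End K V} (S : Star σ ad) {q : ℕ} (hq : Nat.card K = q ^ 2)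
    (hσ : ∀ c, σ c = c ^ q) (hdet : ∀ T, LinearMap.det (ad T) = σ (LinearMap.det T))
    (hGh : ∀ g : V ≃ₗ[K] V, g ∈ Gh ↔ ad (g : V →ₗ[K] V) * (g : V →ₗ[K] V) = 1 ∧ LinearMap.det (g : V →ₗ[K] V) = 1)
    {m : ℕ} {j : Matrix (Fin m) (Fin m) K →ₗ[K] Module.End K V} (C : CompP ad Nh Eh m j) : False := by
  classical
  obtain ⟨l, hl⟩ := exists_eight hq h2
  obtain ⟨d, hd⟩ := C.det
  have hNu : ∀ g ∈ Nh, ad (co g) * co g = 1 := fun g hg => ((hGh g).1 (Nh_le L hg)).1
  obtain ⟨e₀, he₀, hne₀⟩ : ∃ e ∈ Eh, e ≠ 1 := by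
    obtain ⟨e, he, hne⟩ := exists_nsc Kt hL L
    refine ⟨e, he, fun h => hne ?_⟩
    rw [h]
    exact ⟨1, fun v => by rw [one_smul]; rfl⟩
  -- `m ≥ 2`
  have hm2 : 2 ≤ m := by
    by_contra hcon
    have hsub : Subsingleton (Fin m) := by
      rw [Fin.subsingleton_iff_le_one]
      omega
    have h1 : Subsingleton (Matrix.SpecialLinearGroup (Fin m) K) := inferInstance
    obtain ⟨U, hU⟩ := LP_E S C he₀
    apply hne₀
    rw [← hU, Subsingleton.elim U 1, map_one, map_one]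
  have hl4 : (l : K) ^ 4 ≠ 1 := by
    intro h
    have h1 : l ^ 4 = 1 := Units.ext (by rw [Units.val_pow_eq_pow_val, h, Units.val_one])
    have h3 := orderOf_dvd_of_pow_eq_one h1
    rw [hl] at h3
    norm_num at h3
  have hl8 : l ^ 8 = 1 := by rw [← hl]; exact pow_orderOf_eq_one l
  have hcommL := fun U => LP_comm S C hNu U
  by_cases hm3 : 3 ≤ m
  · -- an element of order 8 of `SL_m(K)`
    let i0 : Fin m := ⟨0, by omega⟩
    let i1 : Fin m := ⟨1, by omega⟩
    let i2 : Fin m := ⟨2, by omega⟩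
    have h01 : i0 ≠ i1 := by simp [i0, i1]
    have h02 : i0 ≠ i2 := by simp [i0, i2]
    have h12 : i1 ≠ i2 := by simp [i1, i2]
    let f : Fin m → Kˣ := fun i => if i = i0 then l else if i = i1 then l⁻¹ else 1
    have hf0 : f i0 = l := if_pos rfl
    have hf1 : f i1 = l⁻¹ := by
      change (if i1 = i0 then l else if i1 = i1 then l⁻¹ else 1) = _
      rw [if_neg h01.symm, if_pos rfl]
    have hf2 : f i2 = 1 := by
      change (if i2 = i0 then l else if i2 = i1 then l⁻¹ else 1) = _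
      rw [if_neg h02.symm, if_neg h12.symm]
    let U : (Matrix (Fin m) (Fin m) K)ˣ :=
      Units.map (Matrix.diagonalRingHom (Fin m) K : (Fin m → K) →* Matrix (Fin m) (Fin m) K) (MulEquiv.piUnits.symm f)
    have hUc : (U : Matrix (Fin m) (Fin m) K) = Matrix.diagonal fun i => (f i : K) := rfl
    have hU8 : U ^ 8 = 1 := by
      apply Units.ext
      rw [Units.val_pow_eq_pow_val, hUc, Matrix.diagonal_pow, Units.val_one, ← Matrix.diagonal_one]
      congr 1
      funext i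
      have h3 : f i ^ 8 = 1 := by
        change (if i = i0 then l else if i = i1 then l⁻¹ else 1) ^ 8 = 1
        split_ifs
        · exact hl8
        · rw [inv_pow, hl8, inv_one]
        · exact one_pow 8
      have h4 := congrArg (Units.val : Kˣ → K) h3
      simpa using h4
    have hdU : (U : Matrix (Fin m) (Fin m) K).det = 1 := by
      rw [hUc, Matrix.det_diagonal, Fintype.prod_eq_mul i0 i1 h01, hf0, hf1, Units.mul_inv]
      rintro i ⟨h3, h4⟩
      change (((if i = i0 then l else if i = i1 then l⁻¹ else 1 : Kˣ)) : K) = 1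
      rw [if_neg h3, if_neg h4, Units.val_one]
    have hdU' : (((U⁻¹ : (Matrix (Fin m) (Fin m) K)ˣ) : Matrix (Fin m) (Fin m) K)).det = 1 := by
      have h3 : (U : Matrix (Fin m) (Fin m) K) * ((U⁻¹ : (Matrix (Fin m) (Fin m) K)ˣ) : Matrix (Fin m) (Fin m) K) = 1 :=
        U.mul_inv
      have h4 := congrArg Matrix.det h3
      rwa [Matrix.det_mul, hdU, one_mul, Matrix.det_one] at h4
    have hmem : LP S C U ∈ Gh := by
      rw [hGh]
      refine ⟨LP_unitary S C U, ?_⟩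
      refine (det_LP S C hdet hd U).trans ?_
      rw [hdU, hdU', one_pow, map_one, mul_one]
    have h5 := pow_four_mem Kt hL L hmem (hcommL U) (k := 3) (by
      rw [show (2 : ℕ) ^ 3 = 8 from rfl, ← map_pow, hU8, map_one])
    rw [← map_pow] at h5
    let X : Matrix (Fin m) (Fin m) K := Matrix.single i0 i2 1
    have h6 : j X * co (LP S C (U ^ 4)) = co (LP S C (U ^ 4)) * j X := C.comm X _ h5
    rw [co_LP, QP_apply, mul_add, mul_add, add_mul, add_mul, (C.pair _ _).1, (C.pair _ _).2, mul_one, one_mul, add_zero,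
      add_zero, ← C.mul, ← C.mul, ← map_add, ← map_add] at h6
    have h7 := C.inj h6
    have h8 : X * ((U ^ 4 : (Matrix (Fin m) (Fin m) K)ˣ) : Matrix (Fin m) (Fin m) K) =
        ((U ^ 4 : (Matrix (Fin m) (Fin m) K)ˣ) : Matrix (Fin m) (Fin m) K) * X := by
      rw [mul_sub, mul_one, add_sub_cancel, sub_mul, one_mul, add_sub_cancel] at h7
      exact h7
    rw [Units.val_pow_eq_pow_val, hUc, Matrix.diagonal_pow] at h8
    have h9 := congrFun (congrFun h8 i0) i2
    rw [Matrix.mul_diagonal, Matrix.diagonal_mul] at h9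
    have h10 : X i0 i2 = 1 := Matrix.single_apply_same i0 i2 1
    rw [h10, one_mul, mul_one] at h9
    have h11 : ((f i2 : Kˣ) : K) ^ 4 = ((f i0 : Kˣ) : K) ^ 4 := h9
    rw [hf2, hf0, Units.val_one, one_pow] at h11
    exact hl4 h11.symm
  · obtain rfl : m = 2 := by omega
    -- scalars
    let sc : Kˣ →* (Matrix (Fin 2) (Fin 2) K)ˣ := Units.map (Matrix.scalar (Fin 2) : K →+* Matrix (Fin 2) (Fin 2) K)
    have hsc : ∀ c : Kˣ, (sc c : Matrix (Fin 2) (Fin 2) K) = (c : K) • 1 := by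
      intro c
      change Matrix.scalar (Fin 2) (c : K) = _
      rw [Matrix.scalar_apply, ← Matrix.smul_one_eq_diagonal]
    have hscd : ∀ c : Kˣ, (sc c : Matrix (Fin 2) (Fin 2) K).det = (c : K) ^ 2 := by
      intro c
      rw [hsc, Matrix.det_smul, Matrix.det_one, mul_one, Fintype.card_fin]
    have hsce : ∀ (c : Kˣ) (U : (Matrix (Fin 2) (Fin 2) K)ˣ), sc c * U = U * sc c := by
      intro c U
      apply Units.ext
      rw [Units.val_mul, Units.val_mul, hsc, smul_mul_assoc, one_mul, mul_smul_comm, mul_one]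
    have hinj : ∀ c : Kˣ, sc c = 1 → c = 1 := by
      intro c h
      have h3 := congrArg (Units.val : (Matrix (Fin 2) (Fin 2) K)ˣ → Matrix (Fin 2) (Fin 2) K) h
      rw [hsc, Units.val_one] at h3
      have h4 := congrFun (congrFun h3 0) 0
      apply Units.ext
      simpa using h4
    have hcE : ∀ c : Kˣ, ∀ e ∈ Eh, LP S C (sc c) * e = e * LP S C (sc c) := by
      intro c e he
      obtain ⟨U, rfl⟩ := LP_E S C he
      rw [← map_mul, ← map_mul, hsce]
    have hmemG : ∀ c : Kˣ, (c ^ 2) ^ q = c ^ 2 → LP S C (sc c) ∈ Gh := by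
      intro c hc
      rw [hGh]
      refine ⟨LP_unitary S C _, ?_⟩
      refine (det_LP S C hdet hd _).trans ?_
      rw [← map_inv, hscd, hscd, hσ]
      have h3 : ((c ^ 2 : Kˣ) : K) ^ q = ((c ^ 2 : Kˣ) : K) := by
        have h4 := congrArg (Units.val : Kˣ → K) hc
        rwa [Units.val_pow_eq_pow_val] at h4
      rw [Units.val_pow_eq_pow_val] at h3
      have h4 : (((c⁻¹ : Kˣ) : K) ^ 2) ^ d ^ 1 = (((c : K) ^ 2) ^ d)⁻¹ := by
        rw [pow_one, Units.val_inv_eq_inv_val, inv_pow, inv_pow]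
      rw [pow_one] at h4
      have h5 : ((c : K) ^ 2) ^ d ≠ 0 := pow_ne_zero _ (pow_ne_zero _ c.ne_zero)
      rw [h4, inv_pow, ← pow_mul ((c : K) ^ 2) d q, mul_comm d q, pow_mul, h3, mul_inv_cancel₀ h5]
    have hkS : ∀ c : Kˣ, (c ^ 2) ^ q = c ^ 2 → c ^ 8 = 1 → ∀ h : LP S C (sc c) ∈ Gh,
        π ⟨LP S C (sc c), h⟩ ∈ zpowers s := by
      intro c hc hc8 h
      refine mem_zpowers_s Kt hL L h (hcommL _) (hcE c) (k := 3) ?_
      rw [show (2 : ℕ) ^ 3 = 8 from rfl, ← map_pow, ← map_pow, hc8, map_one, map_one]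
    have hpi : ∀ (c : Kˣ) (k : ℕ) (h : LP S C (sc c) ∈ Gh), π ⟨LP S C (sc c), h⟩ ^ k = 1 → c ^ k = 1 := by
      intro c k h hk
      rw [← map_pow] at hk
      obtain ⟨a, ha⟩ := (isSc_co _).1 ((hL.ker _).1 hk)
      have h3 : co (((⟨LP S C (sc c), h⟩ : ↥Gh) ^ k : ↥Gh) : V ≃ₗ[K] V) = QP S C (sc (c ^ k)) := by
        have h4 : (((⟨LP S C (sc c), h⟩ : ↥Gh) ^ k : ↥Gh) : V ≃ₗ[K] V) = LP S C (sc (c ^ k)) := by
          rw [map_pow, map_pow]
          rfl
        rw [h4, co_LP]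
      rw [h3] at ha
      exact hinj _ (QP_sc S C ha)
    have hqodd := odd_q hq h2
    have hq4 : q % 4 = 1 ∨ q % 4 = 3 := by omega
    rcases hq4 with hq4 | hq4
    · -- `q ≡ 1`: an element of order 8
      have hc : (l ^ 2) ^ q = l ^ 2 := by
        obtain ⟨t, ht⟩ : ∃ t, q = 4 * t + 1 := ⟨q / 4, by omega⟩
        rw [ht, ← pow_mul, show 2 * (4 * t + 1) = 8 * t + 2 by ring, pow_add, pow_mul, hl8, one_pow, one_mul]
      have hg := hmemG l hc
      obtain ⟨k, hk⟩ := hkS l hc hl8 hg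
      have h3 : π ⟨LP S C (sc l), hg⟩ ^ 4 = 1 := by
        rw [← hk]
        change (s ^ k) ^ 4 = 1
        rw [← zpow_natCast, ← zpow_mul, mul_comm, zpow_mul, zpow_natCast, Kt.s_four, one_zpow]
      have h4 := hpi l 4 hg h3
      apply hl4
      have h5 := congrArg (Units.val : Kˣ → K) h4
      rwa [Units.val_pow_eq_pow_val] at h5
    · -- `q ≡ 3`: the element `i` on the image of `ε`
      have hi4 : (l ^ 2) ^ 4 = 1 := by rw [← pow_mul]; exact hl8
      have hc : ((l ^ 2) ^ 2) ^ q = (l ^ 2) ^ 2 := by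
        obtain ⟨t, ht⟩ : ∃ t, q = 2 * t + 1 := ⟨q / 2, by omega⟩
        rw [ht, ← pow_mul, ← pow_mul, show 2 * (2 * (2 * t + 1)) = 8 * t + 2 * 2 by ring, pow_add, pow_mul, hl8, one_pow,
          one_mul, ← pow_mul]
      have hg := hmemG (l ^ 2) hc
      obtain ⟨k, hk⟩ := hkS (l ^ 2) hc (by rw [← pow_mul, mul_comm, pow_mul, hl8, one_pow]) hg
      have hk' : s ^ k = π ⟨LP S C (sc (l ^ 2)), hg⟩ := hk
      -- `r` commutes with the element
      have hrG := L.rG
      have hru : ad (co rh) * co rh = 1 := ((hGh rh).1 hrG).1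
      have hru' : ad (co rh⁻¹) * co rh⁻¹ = 1 := ((hGh rh⁻¹).1 (inv_mem hrG)).1
      have hε := eps_inv S C (by norm_num) hNu (fun e he n hn => congrArg co (L.Eh_comm e he n hn)) ⟨e₀, he₀, hne₀⟩
        hru hru' L.rN L.rE
      have hσi : σ (((l ^ 2)⁻¹ : Kˣ) : K) = ((l ^ 2 : Kˣ) : K) := by
        rw [hσ, ← Units.val_pow_eq_pow_val]
        congr 1
        obtain ⟨t, ht⟩ : ∃ t, q = 4 * t + 3 := ⟨q / 4, by omega⟩
        rw [ht, pow_add, pow_mul, inv_pow, hi4, inv_one, one_pow, one_mul, inv_pow, inv_eq_iff_mul_eq_one, ← pow_succ]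
        exact hi4
      have hform : QP S C (sc (l ^ 2)) = 1 + (((l ^ 2 : Kˣ) : K) - 1) • (j 1 + ad (j 1)) := by
        rw [QP_apply, ← map_inv, hsc, hsc]
        have h3 : ((l ^ 2 : Kˣ) : K) • (1 : Matrix (Fin 2) (Fin 2) K) - 1 = (((l ^ 2 : Kˣ) : K) - 1) • 1 := by
          rw [sub_smul, one_smul]
        have h4 : (((l ^ 2)⁻¹ : Kˣ) : K) • (1 : Matrix (Fin 2) (Fin 2) K) - 1 = ((((l ^ 2)⁻¹ : Kˣ) : K) - 1) • 1 := by
          rw [sub_smul, one_smul]
        rw [h3, h4, map_smul, map_smul, S.smul, map_sub σ, hσi, map_one σ, smul_add, add_assoc]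
      have hrc : rh * LP S C (sc (l ^ 2)) * rh⁻¹ = LP S C (sc (l ^ 2)) := by
        apply co_inj
        rw [co_mul, co_mul, co_LP, hform, mul_add, add_mul, mul_one, co_inv, mul_smul_comm, smul_mul_assoc, hε]
      have h3 : r * π ⟨LP S C (sc (l ^ 2)), hg⟩ * r⁻¹ = π ⟨LP S C (sc (l ^ 2)), hg⟩ := by
        have h4 := L.pi_r hrG
        rw [← h4, ← map_inv, ← map_mul, ← map_mul]
        exact congrArg π (Subtype.ext hrc)
      have h4 : r * s ^ k * r⁻¹ = (s ^ k)⁻¹ := by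
        have h5 : r * s * r⁻¹ = s⁻¹ := by rw [Kt.r_s, mul_inv_cancel_right]
        rw [← conj_zpow, h5, inv_zpow]
      rw [hk', h3] at h4
      have h5 : π ⟨LP S C (sc (l ^ 2)), hg⟩ ^ 2 = 1 := by
        rw [pow_two]
        nth_rewrite 1 [h4]
        rw [inv_mul_cancel]
      have h6 := hpi (l ^ 2) 2 hg h5
      apply hl4
      have h7 := congrArg (Units.val : Kˣ → K) h6
      rw [← pow_mul, Units.val_pow_eq_pow_val] at h7
      exact h7

end Main

end Cfsg.Agent.H330.C3
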